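import Cfsg.Agent.PermTab.J2U3

/-!
# The subgroup of index 100 of J2 (owner: helper7)
-/

set_option autoImplicit false

namespace Cfsg.Agent.J2Tab

open Cfsg Cfsg.Agent.PermTab MulAction

/-- the stabiliser in `J` is `K1` -/
noncomputable def stabEquiv {G : Type*} [Group G] (e : G ≃* J) :
    ((stabilizer J (0 : Fin 100)).comap e.toMonoidHom) ≃* K1 where
  toFun g := ⟨((e (g : G) : J) : Equiv.Perm (Fin 100)), (stab_J _).1 g.2⟩
  invFun k := ⟨e.symm ⟨k, concl0.le k.2⟩, by
    show e (e.symm ⟨k, concl0.le k.2⟩) ∈ stabilizer J (0 : Fin 100)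
    rw [e.apply_symm_apply]
    exact (stab_J _).2 k.2⟩
  left_inv g := by
    apply Subtype.ext
    show e.symm ⟨((e (g : G) : J) : Equiv.Perm (Fin 100)), _⟩ = g
    exact e.symm_apply_apply (g : G)
  right_inv k := by
    apply Subtype.ext
    show ((e (e.symm ⟨k, concl0.le k.2⟩) : J) : Equiv.Perm (Fin 100)) = k
    rw [e.apply_symm_apply]
  map_mul' a b := by
    apply Subtype.ext
    show ((e ((a : G) * b) : J) : Equiv.Perm (Fin 100)) = _
    rw [map_mul]; rfl

theorem orbit36 : (orbit (stabilizer J (0 : Fin 100)) (1 : Fin 100)).ncard = 36 := by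
  have h : orbit (stabilizer J (0 : Fin 100)) (1 : Fin 100) =
      ((Finset.univ.filter (fun β : Fin 100 => isLeaf (findT lev1.T β) = true) : Finset (Fin 100)) : Set (Fin 100)) := by
    ext z
    simp only [Finset.coe_filter, Finset.mem_univ, true_and, Set.mem_setOf_eq]
    constructor
    · rintro ⟨g, rfl⟩
      have h1 := concl1.orbit
      have h2 : ((⟨((g : J) : Equiv.Perm (Fin 100)), (stab_J _).1 g.2⟩ : grp 7 100 (lev1 :: [lev2, lev3])) • (⟨lev1.b, concl1.bn⟩ : Fin 100)) ∈
          orbit (grp 7 100 (lev1 :: [lev2, lev3])) (⟨lev1.b, concl1.bn⟩ : Fin 100) := mem_orbit _ _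
      rw [h1] at h2
      exact (inT_iff _ _).1 h2
    · intro hz
      obtain ⟨g, hg, he⟩ := orb36 z hz
      exact ⟨⟨g, hg⟩, he⟩
  rw [h, Set.ncard_coe_finset]
  decide +kernel

theorem orbit63 : (orbit (stabilizer J (0 : Fin 100)) (37 : Fin 100)).ncard = 63 := by
  have h : orbit (stabilizer J (0 : Fin 100)) (37 : Fin 100) =
      ((Finset.univ.filter (fun β : Fin 100 => mask63.testBit β = true) : Finset (Fin 100)) : Set (Fin 100)) := by
    ext z
    simp only [Finset.coe_filter, Finset.mem_univ, true_and, Set.mem_setOf_eq]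
    constructor
    · rintro ⟨g, rfl⟩
      have hinv : ∀ k ∈ K1, ∀ x : Fin 100, mask63.testBit x = true → mask63.testBit (k x : Fin 100) = true := by
        intro k hk
        have hK : K1 = Subgroup.closure {x | ∃ g ∈ lev1.gens, x = toPerm 7 100 g} := rfl
        rw [hK] at hk
        have hfin : ∀ k : Equiv.Perm (Fin 100), (∀ x : Fin 100, mask63.testBit x = true → mask63.testBit (k x : Fin 100) = true) →
            (∀ x : Fin 100, mask63.testBit x = true → mask63.testBit (k⁻¹ x : Fin 100) = true) := by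
          intro k h x hx
          have h1 : Set.MapsTo k {x : Fin 100 | mask63.testBit x = true} {x : Fin 100 | mask63.testBit x = true} := h
          have h2 : k '' {x : Fin 100 | mask63.testBit x = true} = {x : Fin 100 | mask63.testBit x = true} :=
            Set.eq_of_subset_of_ncard_le h1.image_subset (by rw [Set.ncard_image_of_injective _ k.injective])
          have h3 : x ∈ k '' {x : Fin 100 | mask63.testBit x = true} := by rw [h2]; exact hx
          obtain ⟨y, hy, hyx⟩ := h3
          have h4 : k⁻¹ x = y := by rw [← hyx]; exact Equiv.symm_apply_apply k y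
          rw [h4]; exact hy
        induction hk using Subgroup.closure_induction with
        | mem k hk =>
          obtain ⟨g, hg, rfl⟩ := hk
          intro x hx
          rw [toPerm_apply (inGrp1 hg).1, beq2_iff.1 ((nall_iff _ _).1 ((lall_iff _ _).1 mask_ok g hg) x x.2)]
          exact hx
        | one => intro x hx; exact hx
        | mul a b _ _ ha hb => intro x hx; exact ha _ (hb x hx)
        | inv a _ ha => exact hfin a ha
      exact hinv _ ((stab_J _).1 g.2) 37 (by decide)
    · intro hz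
      obtain ⟨g, hg, he⟩ := orb63 z hz
      exact ⟨⟨g, hg⟩, he⟩
  rw [h, Set.ncard_coe_finset]
  decide +kernel

theorem sub100 {G : Type*} [Group G] (e : G ≃* J) : ∃ H : Subgroup G, H.index = 100 ∧
    (∃ (F : Type) (_ : Field F) (_ : Fintype F), Fintype.card F = 9 ∧ Nonempty (↥H ≃* Cfsg.PSU 3 F 3)) ∧
    ∃ c₁ c₂ : G ⧸ H, (MulAction.orbit ↥H c₁).ncard = 36 ∧ (MulAction.orbit ↥H c₂).ncard = 63 := by
  set H := (stabilizer J (0 : Fin 100)).comap e.toMonoidHom with hH
  have hmem : ∀ g : G, g ∈ H ↔ e g • (0 : Fin 100) = 0 := fun g => Iff.rfl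
  refine ⟨H, ?_, ⟨F9, inferInstance, inferInstance, card_f9, ?_⟩, ?_⟩
  · rw [hH, Subgroup.index_comap_of_surjective _ e.surjective, MulAction.index_stabilizer_of_transitive, Nat.card_fin]
  · obtain ⟨f⟩ := exists_iso9
    exact ⟨(stabEquiv e).trans f⟩
  · let F : G ⧸ H → Fin 100 := Quotient.lift (fun g : G => e g • (0 : Fin 100)) (by
      intro a b hab
      have h1 : a⁻¹ * b ∈ H := QuotientGroup.leftRel_apply.1 hab
      rw [hmem, map_mul, map_inv, mul_smul, inv_smul_eq_iff] at h1
      exact h1.symm)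
    have hF : ∀ g : G, F (QuotientGroup.mk g) = e g • (0 : Fin 100) := fun g => rfl
    have hinj : Function.Injective F := by
      intro a b hab
      obtain ⟨a, rfl⟩ := QuotientGroup.mk_surjective a
      obtain ⟨b, rfl⟩ := QuotientGroup.mk_surjective b
      rw [hF, hF] at hab
      rw [QuotientGroup.eq, hmem, map_mul, map_inv, mul_smul, inv_smul_eq_iff]
      exact hab.symm
    have horb : ∀ g : G, (orbit ↥H (QuotientGroup.mk g : G ⧸ H)).ncard = (orbit (stabilizer J (0 : Fin 100)) (e g • (0 : Fin 100))).ncard := by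
      intro g
      rw [← Set.ncard_image_of_injective _ hinj]
      congr 1
      ext z
      constructor
      · rintro ⟨_, ⟨h, rfl⟩, rfl⟩
        refine ⟨⟨e h, h.2⟩, ?_⟩
        show e (h : G) • e g • (0 : Fin 100) = e ((h : G) * g) • (0 : Fin 100)
        rw [map_mul, mul_smul]
      · rintro ⟨s, rfl⟩
        refine ⟨_, ⟨⟨e.symm s, by rw [hmem, e.apply_symm_apply]; exact s.2⟩, rfl⟩, ?_⟩
        show e (e.symm (s : J) * g) • (0 : Fin 100) = (s : J) • e g • (0 : Fin 100)
        rw [map_mul, mul_smul, e.apply_symm_apply]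
    obtain ⟨g1, h1⟩ := exists_smul_eq J (0 : Fin 100) 1
    obtain ⟨g2, h2⟩ := exists_smul_eq J (0 : Fin 100) 37
    refine ⟨QuotientGroup.mk (e.symm g1), QuotientGroup.mk (e.symm g2), ?_, ?_⟩
    · rw [horb, e.apply_symm_apply, h1, orbit36]
    · rw [horb, e.apply_symm_apply, h2, orbit63]

end Cfsg.Agent.J2Tab
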